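import Mathlib
import Cfsg.Agent.Lib.Core.PFrattini
import Cfsg.Agent.Lib.Core.Basic
import Cfsg.Agent.Lib.PGroup.MaxNormal

/-!
The index of the Frattini subgroup of a `2`-group: multiplicativity along normal subgroups, and the bound four
for `2`-groups without normal four-subgroups.
-/

set_option autoImplicit false

namespace Cfsg.Agent.Lib.FrattIdx

open Subgroup
open scoped commutatorElement

variable {P : Type*} [Group P] [Finite P]

/-- Multiplicativity of the Frattini index along a normal subgroup. -/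
theorem frattini_index_le_mul (hP : IsPGroup 2 P) (K : Subgroup P) [hK : K.Normal] :
    (frattini P).index ≤ (frattini (P ⧸ K)).index * (frattini K).index := by
  haveI : Fact (Nat.Prime 2) := ⟨Nat.prime_two⟩
  obtain ⟨hc, hp⟩ := Cfsg.Agent.Lib.Core.frattini_pgroup 2 hP
  let π : P →* P ⧸ K := QuotientGroup.mk' K
  have hπ : Function.Surjective π := QuotientGroup.mk'_surjective K
  let Φ := frattini P
  have h1 : frattini (P ⧸ K) ≤ Φ.map π := by
    apply Cfsg.Agent.Lib.Core.frattini_le_of_elementary 2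
    · have : commutator (P ⧸ K) = (commutator P).map π := by
        rw [commutator_def, commutator_def, Subgroup.map_commutator, Subgroup.map_top_of_surjective _ hπ]
      rw [this]
      exact Subgroup.map_mono hc
    · intro x
      obtain ⟨y, rfl⟩ := hπ x
      rw [← map_pow]
      exact Subgroup.mem_map_of_mem _ (hp y)
  have h2 : (Φ.map π).index = (Φ ⊔ K).index := by
    have h3 := Subgroup.index_map Φ π
    have hker : π.ker = K := QuotientGroup.ker_mk' K
    rw [hker, MonoidHom.range_eq_top.2 hπ, Subgroup.index_top, mul_one] at h3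
    exact h3
  have h3 : (Φ ⊔ K).index ≤ (frattini (P ⧸ K)).index := by
    rw [← h2]
    exact Nat.le_of_dvd (Nat.pos_of_ne_zero Subgroup.index_ne_zero_of_finite) (Subgroup.index_dvd_of_le h1)
  have h4 : Φ.relIndex (Φ ⊔ K) * (Φ ⊔ K).index = Φ.index := Subgroup.relIndex_mul_index le_sup_left
  have h5 : Φ.relIndex (Φ ⊔ K) = Φ.relIndex K := by
    rw [sup_comm]
    exact Subgroup.relIndex_sup_right K Φ
  have hK2 : IsPGroup 2 K := hP.to_subgroup K
  have h6 : frattini K ≤ Φ.subgroupOf K := by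
    apply Cfsg.Agent.Lib.Core.frattini_le_of_elementary 2
    · rw [commutator_def, Subgroup.commutator_le]
      intro x _ y _
      rw [Subgroup.mem_subgroupOf]
      show ⁅(x : P), (y : P)⁆ ∈ Φ
      exact hc (Subgroup.commutator_mem_commutator (Subgroup.mem_top _) (Subgroup.mem_top _))
    · intro x
      rw [Subgroup.mem_subgroupOf]
      exact hp x
  have h7 : Φ.relIndex K ≤ (frattini K).index :=
    Nat.le_of_dvd (Nat.pos_of_ne_zero Subgroup.index_ne_zero_of_finite) (Subgroup.index_dvd_of_le h6)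
  rw [← h4, h5, mul_comm]
  exact Nat.mul_le_mul h3 h7

/-- The Frattini index of a cyclic `2`-group is at most two. -/
theorem frattini_index_le_two_of_cyclic (hP : IsPGroup 2 P) (hc : IsCyclic P) : (frattini P).index ≤ 2 := by
  haveI : Fact (Nat.Prime 2) := ⟨Nat.prime_two⟩
  obtain ⟨-, hp⟩ := Cfsg.Agent.Lib.Core.frattini_pgroup 2 hP
  obtain ⟨g, hg⟩ := IsCyclic.exists_generator (α := P)
  let g' : P ⧸ frattini P := (g : P ⧸ frattini P)
  have h1 : g' ^ 2 = 1 := by
    show ((g ^ 2 : P) : P ⧸ frattini P) = 1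
    exact (QuotientGroup.eq_one_iff _).2 (hp g)
  have h2 : ∀ x : P ⧸ frattini P, x ∈ zpowers g' := by
    intro x
    obtain ⟨y, rfl⟩ := QuotientGroup.mk_surjective x
    obtain ⟨n, hn⟩ := Subgroup.mem_zpowers_iff.1 (hg y)
    exact Subgroup.mem_zpowers_iff.2 ⟨n, by rw [← hn]; rfl⟩
  rw [Subgroup.index, ← orderOf_eq_card_of_forall_mem_zpowers h2]
  exact Nat.le_of_dvd (by norm_num) (orderOf_dvd_of_pow_eq_one h1)

/-- The Frattini index of a group of order at most two is at most two. -/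
theorem frattini_index_le_of_index (hP : IsPGroup 2 P) {A : Subgroup P} [A.Normal] (hA : IsCyclic A) (hi : A.index ≤ 2) :
    (frattini P).index ≤ 4 := by
  have h1 := frattini_index_le_mul hP A
  have h2 : (frattini A).index ≤ 2 := frattini_index_le_two_of_cyclic (hP.to_subgroup A) hA
  have h3 : (frattini (P ⧸ A)).index ≤ 2 := by
    refine le_trans (Nat.le_of_dvd Nat.card_pos (Subgroup.index_dvd_card _)) ?_
    exact hi
  calc _ ≤ _ := h1
    _ ≤ 2 * 2 := Nat.mul_le_mul h3 h2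
    _ = 4 := by norm_num

/-- An abelian `2`-group with at most one involution is cyclic. -/
theorem cyclic_of_one_invol {A : Type*} [Group A] [Finite A] (hA : IsPGroup 2 A) (hc : ∀ x y : A, x * y = y * x)
    (hu : ∀ x y : A, x ^ 2 = 1 → y ^ 2 = 1 → x ≠ 1 → y ≠ 1 → x = y) : IsCyclic A := by
  classical
  letI : CommGroup A := { (inferInstance : Group A) with mul_comm := hc }
  obtain ⟨a, ha⟩ := Monoid.exists_orderOf_eq_exponent (G := A) (Monoid.ExponentExists.of_finite)
  by_cases hfull : zpowers a = ⊤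
  · exact isCyclic_iff_exists_zpowers_eq_top.2 ⟨a, hfull⟩
  exfalso
  -- an element outside with square inside
  obtain ⟨b, hb, hb2⟩ : ∃ b, b ∉ zpowers a ∧ b ^ 2 ∈ zpowers a := by
    obtain ⟨b₀, hb₀⟩ : ∃ b₀, b₀ ∉ zpowers a := by
      by_contra hcon
      push Not at hcon
      exact hfull (eq_top_iff.2 fun x _ => hcon x)
    obtain ⟨m, hm⟩ := hA b₀
    have hex : ∃ s, b₀ ^ (2 ^ s) ∈ zpowers a := ⟨m, by rw [hm]; exact Subgroup.one_mem _⟩
    let s := Nat.find hex
    have hs : b₀ ^ (2 ^ s) ∈ zpowers a := Nat.find_spec hex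
    have hs0 : s ≠ 0 := by
      intro h0
      rw [h0, pow_zero, pow_one] at hs
      exact hb₀ hs
    obtain ⟨s', hs'⟩ := Nat.exists_eq_succ_of_ne_zero hs0
    refine ⟨b₀ ^ (2 ^ s'), ?_, ?_⟩
    · exact Nat.find_min hex (m := s') (by omega)
    · rw [← pow_mul, ← pow_succ, ← Nat.succ_eq_add_one, ← hs']
      exact hs
  obtain ⟨k, hk⟩ : ∃ k, orderOf a = 2 ^ k := by
    obtain ⟨m, hm⟩ := hA a
    obtain ⟨j, -, hj⟩ := (Nat.dvd_prime_pow Nat.prime_two).1 (orderOf_dvd_of_pow_eq_one hm)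
    exact ⟨j, hj⟩
  have hex1 : b ^ (2 ^ k) = 1 := by
    rw [← hk, ha]
    exact Monoid.pow_exponent_eq_one b
  obtain ⟨e, he⟩ := Subgroup.mem_zpowers_iff.1 hb2
  have hk0 : k ≠ 0 := by
    intro h0
    rw [h0, pow_zero, pow_one] at hex1
    exact hb (hex1 ▸ Subgroup.one_mem _)
  obtain ⟨k', rfl⟩ := Nat.exists_eq_succ_of_ne_zero hk0
  have he2 : Even e := by
    by_contra hodd
    rw [Int.not_even_iff_odd] at hodd
    have h1 : a ^ (e * 2 ^ k') = 1 := by
      rw [zpow_mul, he]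
      have : (b ^ 2) ^ (2 ^ k' : ℤ) = ((b ^ 2) ^ (2 ^ k') : A) := by norm_cast
      rw [this, ← pow_mul, ← pow_succ', ← Nat.succ_eq_add_one]
      exact hex1
    have h2 := orderOf_dvd_iff_zpow_eq_one.2 h1
    rw [hk] at h2
    have h3 : ((2 : ℤ) ^ (k' + 1)) ∣ e * 2 ^ k' := by exact_mod_cast h2
    rw [pow_succ, mul_comm] at h3
    have h4 : (2 : ℤ) ∣ e := by
      have h5 : (2 ^ k' : ℤ) ≠ 0 := by positivity
      rw [mul_comm (2 : ℤ), mul_comm e] at h3
      exact (mul_dvd_mul_iff_left h5).1 h3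
    exact (Int.not_even_iff_odd.2 hodd) (even_iff_two_dvd.2 h4)
  obtain ⟨f, hf⟩ := he2
  -- `b * a ^ (-f)` is an involution outside
  have h2 : (b * a ^ (-f)) ^ 2 = 1 := by
    rw [mul_pow, ← he, hf, ← zpow_natCast (a ^ (-f)) 2, ← zpow_mul, ← zpow_add]
    have : f + f + -f * ((2 : ℕ) : ℤ) = 0 := by push_cast; ring
    rw [this, zpow_zero]
  have h3 : b * a ^ (-f) ≠ 1 := by
    intro h
    apply hb
    have : b = a ^ f := by
      calc b = b * a ^ (-f) * a ^ f := by rw [mul_assoc, ← zpow_add]; simp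
        _ = a ^ f := by rw [h, one_mul]
    rw [this]
    exact Subgroup.zpow_mem_zpowers a f
  have hz : (a ^ (2 ^ k')) ^ 2 = 1 := by
    rw [← pow_mul, ← pow_succ, ← Nat.succ_eq_add_one, ← hk, pow_orderOf_eq_one]
  have hz1 : a ^ (2 ^ k') ≠ 1 := by
    intro h
    have h4 := orderOf_dvd_of_pow_eq_one h
    rw [hk] at h4
    have := Nat.le_of_dvd (by positivity) h4
    have h5 : 2 ^ k' < 2 ^ (k' + 1) := Nat.pow_lt_pow_right (by norm_num) (by omega)
    omega
  have h4 := hu _ _ h2 hz h3 hz1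
  apply hb
  have : b = a ^ (2 ^ k' : ℕ) * a ^ f := by
    rw [← h4]
    rw [mul_assoc, ← zpow_add]
    simp
  rw [this]
  exact Subgroup.mul_mem _ (Subgroup.npow_mem_zpowers a _) (Subgroup.zpow_mem_zpowers a f)

/-- No normal four-subgroup. -/
def NoV (P : Type*) [Group P] : Prop :=
  ∀ z y : P, z ∈ center P → z ^ 2 = 1 → z ≠ 1 → y ^ 2 = 1 → y ≠ 1 → y ≠ z →
    (∀ g, g * y * g⁻¹ = y ∨ g * y * g⁻¹ = z * y) → False

lemma mem_zpowers_invol {z x : P} (hz : z ^ 2 = 1) (hx : x ∈ zpowers z) : x = 1 ∨ x = z := by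
  obtain ⟨n, rfl⟩ := Subgroup.mem_zpowers_iff.1 hx
  rcases Int.even_or_odd' n with ⟨m, rfl | rfl⟩
  · left
    rw [zpow_mul]
    have : z ^ (2 : ℤ) = 1 := by exact_mod_cast hz
    rw [this, one_zpow]
  · right
    rw [zpow_add, zpow_mul]
    have : z ^ (2 : ℤ) = 1 := by exact_mod_cast hz
    rw [this, one_zpow, one_mul, zpow_one]

/-- The key step: an element centralising the subgroup of order four of a self-centralising cyclic normal subgroup lies in it. -/
lemma key_step (hP : IsPGroup 2 P) (hno : NoV P) (A : Subgroup P) (hAC : centralizer (A : Set P) ≤ A) [hAn : A.Normal] (a : P)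
    (hA : ∀ x, x ∈ A ↔ x ∈ zpowers a) (k : ℕ) (ha : orderOf a = 2 ^ (k + 2))
    (huniq : ∀ u ∈ A, ∀ v ∈ A, u ^ 2 = 1 → v ^ 2 = 1 → u ≠ 1 → v ≠ 1 → u = v)
    (x₀ : P) (hx₀ : x₀ ∉ A) (hx₀w : Commute x₀ (a ^ (2 ^ k))) : False := by
  classical
  have haA : a ∈ A := (hA a).2 (Subgroup.mem_zpowers a)
  have hfin : IsOfFinOrder a := isOfFinOrder_of_finite a
  -- elements of `A` are powers of `a`
  have hpow : ∀ u ∈ A, ∃ n : ℕ, u = a ^ n := by
    intro u hu
    obtain ⟨n, hn⟩ := (mem_powers_iff_mem_zpowers).2 ((hA u).1 hu)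
    exact ⟨n, hn.symm⟩
  -- commuting with `a` puts an element in `A`
  have hcent : ∀ t : P, Commute t a → t ∈ A := by
    intro t ht
    apply hAC
    rw [Subgroup.mem_centralizer_iff]
    intro h hh
    obtain ⟨n, rfl⟩ := hpow h hh
    exact ((ht.pow_right n).eq).symm
  -- reduce to a square in `A`
  obtain ⟨x, hx, hx2, hxw⟩ : ∃ x, x ∉ A ∧ x ^ 2 ∈ A ∧ Commute x (a ^ (2 ^ k)) := by
    obtain ⟨m, hm⟩ := hP x₀
    have hex : ∃ s, x₀ ^ (2 ^ s) ∈ A := ⟨m, by rw [hm]; exact Subgroup.one_mem _⟩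
    let s := Nat.find hex
    have hs : x₀ ^ (2 ^ s) ∈ A := Nat.find_spec hex
    have hs0 : s ≠ 0 := by
      intro h0
      rw [h0, pow_zero, pow_one] at hs
      exact hx₀ hs
    obtain ⟨s', hs'⟩ := Nat.exists_eq_succ_of_ne_zero hs0
    refine ⟨x₀ ^ (2 ^ s'), ?_, ?_, hx₀w.pow_left _⟩
    · exact Nat.find_min hex (m := s') (by omega)
    · rw [← pow_mul, ← pow_succ, ← Nat.succ_eq_add_one, ← hs']
      exact hs
  -- the exponent
  obtain ⟨τ, hτ⟩ := hpow (x * a * x⁻¹) (hAn.conj_mem a haA x)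
  have hconj : ∀ n : ℕ, x * a ^ n * x⁻¹ = (a ^ n) ^ τ := by
    intro n
    rw [← conj_pow, hτ, ← pow_mul, ← pow_mul, mul_comm]
  have hconjA : ∀ u ∈ A, x * u * x⁻¹ = u ^ τ := by
    intro u hu
    obtain ⟨n, rfl⟩ := hpow u hu
    exact hconj n
  have hw4 : orderOf (a ^ (2 ^ k)) = 4 := by
    rw [orderOf_pow_of_dvd (by positivity) (by rw [ha]; exact pow_dvd_pow 2 (by omega)), ha, pow_add]
    have : 0 < 2 ^ k := by positivity
    rw [Nat.mul_div_cancel_left _ this]
    norm_num
  have hτ0 : τ ≠ 0 := by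
    intro h0
    rw [h0, pow_zero] at hτ
    have h1 : a = 1 := by
      have : x⁻¹ * (x * a * x⁻¹) * x = a := by group
      rw [hτ] at this
      simpa using this.symm
    rw [h1, orderOf_one] at ha
    have : 1 < 2 ^ (k + 2) := Nat.one_lt_two_pow (by omega)
    omega
  obtain ⟨m, hm⟩ : ∃ m, τ = 4 * m + 1 := by
    have h1 : (a ^ (2 ^ k)) ^ τ = a ^ (2 ^ k) := by
      rw [← hconj, hxw.eq, mul_inv_cancel_right]
    have h2 : (a ^ (2 ^ k)) ^ (τ - 1) = 1 := by
      have h3 : (a ^ (2 ^ k)) ^ (τ - 1) * a ^ (2 ^ k) = a ^ (2 ^ k) := by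
        rw [← pow_succ, Nat.sub_add_cancel (by omega), h1]
      exact mul_eq_right.1 h3
    obtain ⟨m, hm⟩ := orderOf_dvd_of_pow_eq_one h2
    rw [hw4] at hm
    exact ⟨m, by omega⟩
  have hcop : ∀ c : ℕ, Odd c → ∀ u : P, c.Coprime (orderOf u) := by
    intro c hc u
    obtain ⟨j, hj⟩ := hP u
    obtain ⟨i, -, hi⟩ := (Nat.dvd_prime_pow Nat.prime_two).1 (orderOf_dvd_of_pow_eq_one hj)
    rw [hi]
    exact Nat.Coprime.pow_right _ (Nat.coprime_two_right.2 hc)
  -- the square of `x`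
  obtain ⟨e, he⟩ := hpow _ hx2
  have heven : Even e := by
    by_contra hodd
    rw [Nat.not_even_iff_odd] at hodd
    obtain ⟨n, hn⟩ := exists_pow_eq_self_of_coprime (hcop e hodd a)
    apply hx
    apply hcent
    have h1 : Commute x (a ^ e) := by
      rw [← he]
      exact (Commute.refl x).pow_right 2
    have h2 := h1.pow_right n
    rwa [hn] at h2
  obtain ⟨f, hf⟩ := heven
  -- the involution outside `A`
  set c := 2 * m + 1 with hc
  have hcodd : Odd c := ⟨m, rfl⟩
  set d := (a ^ f)⁻¹ with hd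
  obtain ⟨n, hn⟩ := exists_pow_eq_self_of_coprime (hcop c hcodd d)
  set b := d ^ n with hb
  have hbc : b ^ c = d := by
    rw [hb, pow_right_comm, hn]
  have hdA : d ∈ A := A.inv_mem (A.pow_mem haA f)
  have hbA : b ∈ A := A.pow_mem hdA n
  have hAcomm : ∀ u ∈ A, ∀ v ∈ A, u * v = v * u := by
    intro u hu v hv
    obtain ⟨i, rfl⟩ := hpow u hu
    obtain ⟨j, rfl⟩ := hpow v hv
    exact ((Commute.refl a).pow_pow i j).eq
  set y := b * x with hy
  have hτc : 1 + τ = 2 * c := by
    rw [hm, hc]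
    ring
  have hy2 : y ^ 2 = 1 := by
    calc y ^ 2 = b * (x * b * x⁻¹) * x ^ 2 := by
          rw [hy, pow_two, pow_two]
          group
      _ = b * b ^ τ * a ^ e := by rw [hconjA b hbA, he]
      _ = (b ^ c) ^ 2 * (a ^ f) ^ 2 := by
          have h1 : b * b ^ τ = (b ^ c) ^ 2 := by
            rw [← pow_mul b c 2, mul_comm c 2, ← hτc, pow_add, pow_one]
          have h2 : a ^ e = (a ^ f) ^ 2 := by
            rw [hf, ← pow_mul, mul_two]
          rw [h1, h2]
      _ = 1 := by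
          rw [hbc, hd, inv_pow, inv_mul_cancel]
  have hyA : y ∉ A := by
    intro h
    apply hx
    have : x = b⁻¹ * y := by
      rw [hy]
      group
    rw [this]
    exact A.mul_mem (A.inv_mem hbA) h
  have hy1 : y ≠ 1 := fun h => hyA (h ▸ A.one_mem)
  set z := a ^ (2 ^ (k + 1)) with hz
  have hzA : z ∈ A := A.pow_mem haA _
  have hz2 : z ^ 2 = 1 := by
    rw [hz, ← pow_mul, ← pow_succ, ← ha, pow_orderOf_eq_one]
  have hz1 : z ≠ 1 := by
    intro h
    have h4 := orderOf_dvd_of_pow_eq_one h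
    rw [ha] at h4
    have := Nat.le_of_dvd (by positivity) h4
    have h5 : 2 ^ (k + 1) < 2 ^ (k + 2) := Nat.pow_lt_pow_right (by norm_num) (by omega)
    omega
  have hzc : z ∈ center P := by
    rw [Subgroup.mem_center_iff]
    intro g
    have h1 : g * z * g⁻¹ ∈ A := hAn.conj_mem z hzA g
    have h2 : (g * z * g⁻¹) ^ 2 = 1 := by
      rw [conj_pow, hz2]
      group
    have h3 : g * z * g⁻¹ ≠ 1 := by
      intro h
      apply hz1
      have : g⁻¹ * (g * z * g⁻¹) * g = z := by group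
      rw [h] at this
      simpa using this.symm
    have h4 := huniq _ h1 _ hzA h2 hz2 h3 hz1
    calc g * z = (g * z * g⁻¹) * g := by group
      _ = z * g := by rw [h4]
  have hyconj : ∀ u ∈ A, y * u * y⁻¹ = u ^ τ := by
    intro u hu
    have h1 : y * u * y⁻¹ = b * (x * u * x⁻¹) * b⁻¹ := by
      rw [hy]
      group
    rw [h1, hconjA u hu, hAcomm b hbA _ (A.pow_mem hu τ), mul_inv_cancel_right]
  refine hno z y hzc hz2 hz1 hy2 hy1 (fun h => hyA (h ▸ hzA)) ?_
  intro g
  set Y := g * y * g⁻¹ with hY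
  have hY2 : Y ^ 2 = 1 := by
    rw [hY, conj_pow, hy2]
    group
  obtain ⟨σ, hσ⟩ := hpow (g⁻¹ * a * g) (by simpa using hAn.conj_mem a haA g⁻¹)
  have hYa : Y * a * Y⁻¹ = a ^ τ := by
    have h1 : Y * a * Y⁻¹ = g * (y * (g⁻¹ * a * g) * y⁻¹) * g⁻¹ := by
      rw [hY]
      group
    have h2 : (g⁻¹ * a * g) ^ τ = g⁻¹ * a ^ τ * g := by
      have := conj_pow (a := g⁻¹) (b := a) (i := τ)
      simpa using this
    rw [h1, hσ, hyconj _ (A.pow_mem haA σ), ← hσ, h2]
    group
  set u := Y * y⁻¹ with hu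
  have hua : Commute u (a ^ τ) := by
    have h1 : u * (a ^ τ) * u⁻¹ = a ^ τ := by
      have h2 : a ^ τ = y * a * y⁻¹ := by
        rw [hyconj a haA]
      calc u * (a ^ τ) * u⁻¹ = u * (y * a * y⁻¹) * u⁻¹ := by rw [← h2]
        _ = Y * a * Y⁻¹ := by
            rw [hu]
            group
        _ = a ^ τ := hYa
    show u * a ^ τ = a ^ τ * u
    calc u * a ^ τ = (u * a ^ τ * u⁻¹) * u := by group
      _ = a ^ τ * u := by rw [h1]
  have hτodd : Odd τ := ⟨2 * m, by rw [hm]; ring⟩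
  obtain ⟨n', hn'⟩ := exists_pow_eq_self_of_coprime (hcop τ hτodd a)
  have huA : u ∈ A := by
    apply hcent
    have := hua.pow_right n'
    rwa [hn'] at this
  have hu2 : u ^ 2 = 1 := by
    have h1 : Y ^ 2 = u * (y * u * y⁻¹) * y ^ 2 := by
      have : Y = u * y := by
        rw [hu]
        group
      rw [this, pow_two, pow_two]
      group
    rw [hY2, hy2, mul_one, hyconj u huA, ← pow_succ', add_comm τ 1, hτc, pow_mul] at h1
    have h3 : orderOf (u ^ 2) ∣ c := orderOf_dvd_of_pow_eq_one h1.symm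
    have h4 : (orderOf (u ^ 2)) = 1 := by
      have h5 := hcop c hcodd (u ^ 2)
      exact Nat.eq_one_of_dvd_coprimes h5 h3 (dvd_refl _)
    exact orderOf_eq_one_iff.1 h4
  by_cases hu1 : u = 1
  · left
    have : Y = u * y := by
      rw [hu]
      group
    rw [this, hu1, one_mul]
  · right
    have h1 := huniq u huA z hzA hu2 hz2 hu1 hz1
    have : Y = u * y := by
      rw [hu]
      group
    rw [this, h1]

/-- A `2`-group without normal four-subgroups has a cyclic normal subgroup of index at most two. -/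
theorem exists_cyclic_index_le_two (hP : IsPGroup 2 P) (hno : NoV P) :
    ∃ A : Subgroup P, A.Normal ∧ IsCyclic A ∧ A.index ≤ 2 := by
  classical
  haveI : Fact (Nat.Prime 2) := ⟨Nat.prime_two⟩
  haveI : Group.IsNilpotent P := hP.isNilpotent
  obtain ⟨A, hAn, hAc, hAC⟩ := Cfsg.Agent.Lib.PGroup.exists_normal_abelian_self_centralizing (G := P)
  have hAcomm : ∀ u ∈ A, ∀ v ∈ A, u * v = v * u := by
    intro u hu v hv
    have := hAc.is_comm.comm ⟨u, hu⟩ ⟨v, hv⟩
    exact congrArg Subtype.val this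
  have huniq : ∀ u ∈ A, ∀ v ∈ A, u ^ 2 = 1 → v ^ 2 = 1 → u ≠ 1 → v ≠ 1 → u = v := by
    intro u hu v hv hu2 hv2 hu1 hv1
    by_contra huv
    let E : Subgroup P :=
      { carrier := {x | x ∈ A ∧ x ^ 2 = 1}
        mul_mem' := by
          rintro s r ⟨hs, hs2⟩ ⟨hr, hr2⟩
          refine ⟨A.mul_mem hs hr, ?_⟩
          have : (s * r) ^ 2 = s ^ 2 * r ^ 2 := by
            rw [pow_two, pow_two, pow_two]
            calc s * r * (s * r) = s * (r * s) * r := by group
              _ = s * (s * r) * r := by rw [hAcomm r hr s hs]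
              _ = _ := by group
          rw [this, hs2, hr2, one_mul]
        one_mem' := ⟨A.one_mem, one_pow 2⟩
        inv_mem' := by
          rintro s ⟨hs, hs2⟩
          exact ⟨A.inv_mem hs, by rw [inv_pow, hs2, inv_one]⟩ }
    have hEn : E.Normal := by
      refine ⟨fun s hs g => ⟨hAn.conj_mem s hs.1 g, ?_⟩⟩
      rw [conj_pow, hs.2]
      group
    have hEb : E ≠ ⊥ := by
      intro h
      have : u ∈ E := ⟨hu, hu2⟩
      rw [h, Subgroup.mem_bot] at this
      exact hu1 this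
    obtain ⟨⟨z, hzE, hzc⟩, hz1⟩ := (Subgroup.ne_bot_iff_exists_ne_one).1 (Cfsg.Agent.Lib.Core.normal_inf_center_ne_bot E hEb)
    have hz1' : z ≠ 1 := fun h => hz1 (Subtype.ext h)
    have hz2 : z ^ 2 = 1 := hzE.2
    let Z : Subgroup P := zpowers z
    haveI hZn : Z.Normal := by
      refine ⟨fun s hs g => ?_⟩
      rcases mem_zpowers_invol hz2 hs with rfl | rfl
      · simpa using Z.one_mem
      · have : g * s * g⁻¹ = s := by
          rw [Subgroup.mem_center_iff.1 hzc g, mul_inv_cancel_right]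
        rw [this]
        exact hs
    let π : P →* P ⧸ Z := QuotientGroup.mk' Z
    have hπ : Function.Surjective π := QuotientGroup.mk'_surjective Z
    haveI : Group.IsNilpotent (P ⧸ Z) := (hP.to_quotient Z).isNilpotent
    haveI hEbn : (E.map π).Normal := hEn.map π hπ
    have hEbb : E.map π ≠ ⊥ := by
      intro h
      have key : ∀ s ∈ E, s ∈ Z := by
        intro s hs
        have h1 : π s ∈ E.map π := Subgroup.mem_map_of_mem _ hs
        rw [h, Subgroup.mem_bot] at h1
        exact (QuotientGroup.eq_one_iff s).1 h1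
      have h2 := mem_zpowers_invol hz2 (key u ⟨hu, hu2⟩)
      have h3 := mem_zpowers_invol hz2 (key v ⟨hv, hv2⟩)
      rcases h2 with h2 | h2
      · exact hu1 h2
      rcases h3 with h3 | h3
      · exact hv1 h3
      exact huv (h2.trans h3.symm)
    obtain ⟨⟨yb, hyE, hyc⟩, hy1⟩ := (Subgroup.ne_bot_iff_exists_ne_one).1 (Cfsg.Agent.Lib.Core.normal_inf_center_ne_bot (E.map π) hEbb)
    obtain ⟨y, hyE', rfl⟩ := hyE
    have hyZ : y ∉ Z := by
      intro h
      apply hy1
      apply Subtype.ext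
      exact (QuotientGroup.eq_one_iff y).2 h
    refine hno z y hzc hz2 hz1' hyE'.2 (fun h => hyZ (h ▸ Z.one_mem)) (fun h => hyZ (h ▸ Subgroup.mem_zpowers z)) ?_
    intro g
    have h1 : π (g * y * g⁻¹ * y⁻¹) = 1 := by
      rw [map_mul, map_mul, map_mul, map_inv, map_inv, Subgroup.mem_center_iff.1 hyc (π g)]
      group
    have h2 : g * y * g⁻¹ * y⁻¹ ∈ Z := (QuotientGroup.eq_one_iff _).1 h1
    rcases mem_zpowers_invol hz2 h2 with h3 | h3
    · left
      exact mul_inv_eq_one.1 h3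
    · right
      exact mul_inv_eq_iff_eq_mul.1 h3
  have hcyc : IsCyclic A := by
    apply cyclic_of_one_invol (hP.to_subgroup A)
    · rintro ⟨s, hs⟩ ⟨r, hr⟩
      exact Subtype.ext (hAcomm s hs r hr)
    · rintro ⟨s, hs⟩ ⟨r, hr⟩ hs2 hr2 hs1 hr1
      apply Subtype.ext
      refine huniq s hs r hr ?_ ?_ ?_ ?_
      · exact congrArg Subtype.val hs2
      · exact congrArg Subtype.val hr2
      · exact fun h => hs1 (Subtype.ext h)
      · exact fun h => hr1 (Subtype.ext h)
  refine ⟨A, hAn, hcyc, ?_⟩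
  obtain ⟨⟨a, haA⟩, hgen⟩ := IsCyclic.exists_generator (α := A)
  have hA : ∀ x, x ∈ A ↔ x ∈ zpowers a := by
    intro x
    constructor
    · intro hx
      obtain ⟨n, hn⟩ := Subgroup.mem_zpowers_iff.1 (hgen ⟨x, hx⟩)
      have := congrArg Subtype.val hn
      exact Subgroup.mem_zpowers_iff.2 ⟨n, by simpa using this⟩
    · intro hx
      obtain ⟨n, rfl⟩ := Subgroup.mem_zpowers_iff.1 hx
      exact A.zpow_mem haA n
  obtain ⟨k, hk⟩ : ∃ k, orderOf a = 2 ^ k := by
    obtain ⟨m, hm⟩ := hP a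
    obtain ⟨j, -, hj⟩ := (Nat.dvd_prime_pow Nat.prime_two).1 (orderOf_dvd_of_pow_eq_one hm)
    exact ⟨j, hj⟩
  have hcent : ∀ t : P, Commute t a → t ∈ A := by
    intro t ht
    apply hAC
    rw [Subgroup.mem_centralizer_iff]
    intro h hh
    obtain ⟨n, hn⟩ := (mem_powers_iff_mem_zpowers).2 ((hA h).1 hh)
    rw [← hn]
    exact ((ht.pow_right n).eq).symm
  by_cases hk2 : k < 2
  · have htop : ∀ g : P, g ∈ A := by
      intro g
      apply hcent
      have h1 : a ^ 2 = 1 := by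
        rw [← orderOf_dvd_iff_pow_eq_one, hk]
        calc 2 ^ k ∣ 2 ^ 1 := pow_dvd_pow 2 (by omega)
          _ = 2 := by norm_num
      by_cases ha1 : a = 1
      · rw [ha1]
        exact Commute.one_right g
      have h2 : g * a * g⁻¹ ∈ A := hAn.conj_mem a haA g
      have h3 : (g * a * g⁻¹) ^ 2 = 1 := by
        rw [conj_pow, h1]
        group
      have h4 : g * a * g⁻¹ ≠ 1 := by
        intro h
        apply ha1
        have : g⁻¹ * (g * a * g⁻¹) * g = a := by group
        rw [h] at this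
        simpa using this.symm
      have h5 := huniq _ h2 _ haA h3 h1 h4 ha1
      show g * a = a * g
      calc g * a = (g * a * g⁻¹) * g := by group
        _ = a * g := by rw [h5]
    have : A = ⊤ := eq_top_iff.2 fun g _ => htop g
    rw [this, Subgroup.index_top]
    norm_num
  obtain ⟨k', rfl⟩ : ∃ k', k = k' + 2 := ⟨k - 2, by omega⟩
  set w := a ^ (2 ^ k') with hw
  have hkey : ∀ x, x ∉ A → ¬ Commute x w := fun x hx hxw => key_step hP hno A hAC a hA k' hk huniq x hx hxw
  have hinv : ∀ g : P, g * w * g⁻¹ = w ∨ g * w * g⁻¹ = w⁻¹ := by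
    intro g
    obtain ⟨τ, hτ⟩ := (mem_powers_iff_mem_zpowers).2 ((hA _).1 (hAn.conj_mem a haA g))
    have hτodd : Odd τ := by
      by_contra he
      rw [Nat.not_odd_iff_even] at he
      obtain ⟨j, hj⟩ := he
      have h1 : (g * a * g⁻¹) ^ (2 ^ (k' + 1)) = 1 := by
        rw [← hτ, ← pow_mul, hj]
        have : (j + j) * 2 ^ (k' + 1) = j * 2 ^ (k' + 2) := by ring
        rw [this, pow_mul', ← hk, pow_orderOf_eq_one, one_pow]
      rw [conj_pow] at h1
      have h2 : a ^ (2 ^ (k' + 1)) = 1 := by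
        have : g⁻¹ * (g * a ^ (2 ^ (k' + 1)) * g⁻¹) * g = a ^ (2 ^ (k' + 1)) := by group
        rw [h1] at this
        simpa using this.symm
      have h4 := orderOf_dvd_of_pow_eq_one h2
      rw [hk] at h4
      have := Nat.le_of_dvd (by positivity) h4
      have h5 : 2 ^ (k' + 1) < 2 ^ (k' + 2) := Nat.pow_lt_pow_right (by norm_num) (by omega)
      omega
    have hw4 : w ^ 4 = 1 := by
      rw [hw, ← pow_mul]
      have : 2 ^ k' * 4 = 2 ^ (k' + 2) := by ring
      rw [this, ← hk, pow_orderOf_eq_one]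
    have hconj : g * w * g⁻¹ = w ^ τ := by
      rw [hw, ← conj_pow, ← hτ, ← pow_mul, ← pow_mul, mul_comm]
    rw [hconj]
    have hdm : τ % 4 = 1 ∨ τ % 4 = 3 := by
      obtain ⟨j, hj⟩ := hτodd
      omega
    rcases hdm with h | h
    · left
      rw [← Nat.div_add_mod τ 4, h, pow_add, pow_mul, hw4, one_pow, one_mul, pow_one]
    · right
      rw [← Nat.div_add_mod τ 4, h, pow_add, pow_mul, hw4, one_pow, one_mul]
      rw [eq_inv_iff_mul_eq_one, ← pow_succ, hw4]
  by_cases hall : ∀ g, g ∈ A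
  · have : A = ⊤ := eq_top_iff.2 fun g _ => hall g
    rw [this, Subgroup.index_top]
    norm_num
  push Not at hall
  obtain ⟨g₀, hg₀⟩ := hall
  have hcover : ∀ h : P, h ∈ A ∨ g₀⁻¹ * h ∈ A := by
    intro h
    by_cases hh : h ∈ A
    · exact Or.inl hh
    right
    by_contra hcon
    apply hkey _ hcon
    have h1 : g₀ * w * g₀⁻¹ = w⁻¹ := by
      rcases hinv g₀ with h2 | h2
      · exfalso
        apply hkey g₀ hg₀
        show g₀ * w = w * g₀
        calc g₀ * w = (g₀ * w * g₀⁻¹) * g₀ := by group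
          _ = w * g₀ := by rw [h2]
      · exact h2
    have h2 : h * w * h⁻¹ = w⁻¹ := by
      rcases hinv h with h3 | h3
      · exfalso
        apply hkey h hh
        show h * w = w * h
        calc h * w = (h * w * h⁻¹) * h := by group
          _ = w * h := by rw [h3]
      · exact h3
    show g₀⁻¹ * h * w = w * (g₀⁻¹ * h)
    have h3 : g₀⁻¹ * w⁻¹ * g₀ = w := by
      have : g₀⁻¹ * (g₀ * w * g₀⁻¹) * g₀ = w := by group
      rwa [h1] at this
    calc g₀⁻¹ * h * w = g₀⁻¹ * (h * w * h⁻¹) * h := by group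
      _ = (g₀⁻¹ * w⁻¹ * g₀) * (g₀⁻¹ * h) := by rw [h2]; group
      _ = w * (g₀⁻¹ * h) := by rw [h3]
  -- count cosets
  let f : Fin 2 → P ⧸ A := fun i => if i = 0 then ((1 : P) : P ⧸ A) else (g₀ : P ⧸ A)
  have hf : Function.Surjective f := by
    intro x
    obtain ⟨h, rfl⟩ := QuotientGroup.mk_surjective x
    rcases hcover h with h1 | h1
    · refine ⟨0, ?_⟩
      simp only [f, if_true]
      apply QuotientGroup.eq.2
      simpa using h1
    · refine ⟨1, ?_⟩
      simp only [f, one_ne_zero, if_false]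
      exact QuotientGroup.eq.2 h1
  have := Nat.card_le_card_of_surjective f hf
  simpa [Subgroup.index] using this

end Cfsg.Agent.Lib.FrattIdx
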