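import Mathlib
import Cfsg.Agent.Lib.HHB.Orth
import Cfsg.Agent.Lib.FrattIdx.NoFour

/-!
Faithful representations of `2`-groups over odd prime fields: the Frattini index is bounded by half of
the size of the module.
-/

set_option autoImplicit false

namespace Cfsg.Agent.Lib.FrattIdx

open Subgroup

universe u v

/-- The bound for the Frattini index. -/
def T (n : ℕ) : ℕ := if n = 3 then 2 else n / 2

lemma T_odd (k : ℕ) : T (2 * k + 1) = if k = 1 then 2 else k := by
  unfold T
  by_cases h : k = 1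
  · subst h
    norm_num
  · rw [if_neg (by omega), if_neg h]
    omega

lemma T_mul {a b : ℕ} (ha : Odd a) (hb : Odd b) (h3a : 3 ≤ a) (h3b : 3 ≤ b) : T a * T b ≤ T (a * b) := by
  obtain ⟨k, rfl⟩ := ha
  obtain ⟨l, rfl⟩ := hb
  have hk : 1 ≤ k := by omega
  have hl : 1 ≤ l := by omega
  have h1 : (2 * k + 1) * (2 * l + 1) = 2 * (2 * k * l + k + l) + 1 := by ring
  have h3 : 2 * k * l + k + l ≠ 1 := by
    have : 1 ≤ k * l := Nat.mul_pos hk hl
    nlinarith
  rw [h1, T_odd, T_odd, T_odd, if_neg h3]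
  have : 1 ≤ k * l := Nat.mul_pos hk hl
  split_ifs with h4 h5 h5
  · subst h4
    subst h5
    norm_num
  · subst h4
    omega
  · subst h5
    omega
  · nlinarith

lemma T_swap {a : ℕ} (ha : Odd a) (h3a : 5 ≤ a) : 2 * (T a * T a) ≤ T (a * a) := by
  obtain ⟨k, rfl⟩ := ha
  have hk : 2 ≤ k := by omega
  have h1 : (2 * k + 1) * (2 * k + 1) = 2 * (2 * k * k + k + k) + 1 := by ring
  have h3 : 2 * k * k + k + k ≠ 1 := by nlinarith
  rw [h1, T_odd, T_odd, if_neg h3, if_neg (by omega)]
  nlinarith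

section Rep

variable {K : Type*} {V : Type*} [Field K] [AddCommGroup V] [Module K V] {G : Type*} [Group G]

/-- The restriction of a representation to an invariant subspace. -/
def resRep (ρ : G →* Module.End K V) (W : Submodule K V) (hW : ∀ g, ∀ v ∈ W, ρ g v ∈ W) :
    G →* Module.End K W where
  toFun g := (ρ g).restrict (hW g)
  map_one' := by
    ext v
    simp
  map_mul' g h := by
    ext v
    simp [Module.End.mul_apply]

lemma resRep_apply (ρ : G →* Module.End K V) (W : Submodule K V) (hW : ∀ g, ∀ v ∈ W, ρ g v ∈ W) (g : G) (v : W) :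
    ((resRep ρ W hW g) v : V) = ρ g v := rfl

/-- A faithful representation on a direct sum gives a faithful representation of a quotient on the first
summand and of the kernel on the second. -/
theorem split_rep (ρ : G →* Module.End K V) (hinj : Function.Injective ρ) (W W' : Submodule K V) (hc : IsCompl W W')
    (hW : ∀ g, ∀ v ∈ W, ρ g v ∈ W) (hW' : ∀ g, ∀ v ∈ W', ρ g v ∈ W') :
    ∃ (N : Subgroup G) (_ : N.Normal) (ρ₁ : G ⧸ N →* Module.End K W) (ρ₂ : N →* Module.End K W'),
      Function.Injective ρ₁ ∧ Function.Injective ρ₂ := by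
  let ρW := resRep ρ W hW
  refine ⟨ρW.ker, inferInstance, QuotientGroup.lift ρW.ker ρW le_rfl, (resRep ρ W' hW').comp ρW.ker.subtype,
    ?_, ?_⟩
  · intro a b hab
    obtain ⟨a, rfl⟩ := QuotientGroup.mk_surjective a
    obtain ⟨b, rfl⟩ := QuotientGroup.mk_surjective b
    rw [QuotientGroup.lift_mk, QuotientGroup.lift_mk] at hab
    apply QuotientGroup.eq.2
    show ρW (a⁻¹ * b) = 1
    rw [map_mul, ← hab, ← map_mul, inv_mul_cancel, map_one]
  rintro ⟨a, ha⟩ ⟨b, hb⟩ hab
  apply Subtype.ext
  apply hinj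
  ext v
  have hv : v ∈ W ⊔ W' := by
    rw [hc.sup_eq_top]
    trivial
  obtain ⟨w, hw, w', hw', rfl⟩ := Submodule.mem_sup.1 hv
  rw [map_add, map_add]
  congr 1
  · have h1 : ρW a = 1 := ha
    have h2 : ρW b = 1 := hb
    have h3 : ρ a w = w := congrArg Subtype.val (LinearMap.congr_fun h1 ⟨w, hw⟩)
    have h4 : ρ b w = w := congrArg Subtype.val (LinearMap.congr_fun h2 ⟨w, hw⟩)
    rw [h3, h4]
  · exact congrArg Subtype.val (LinearMap.congr_fun hab ⟨w', hw'⟩)

/-- Eigenspaces of an involutive operator. -/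
lemma eigen_split (A : Module.End K V) (hA : A * A = 1) (h1 : A ≠ 1) (h2 : A ≠ -1) :
    ∃ W : Submodule K V, W ≠ ⊥ ∧ W ≠ ⊤ ∧ ∀ B : Module.End K V, B * A = A * B → ∀ v ∈ W, B v ∈ W := by
  have hAA : ∀ v, A (A v) = v := fun v => by
    have := LinearMap.congr_fun hA v
    simpa using this
  refine ⟨LinearMap.ker (A - 1), ?_, ?_, ?_⟩
  · have hex : ∃ v, A v + v ≠ 0 := by
      by_contra hcon
      push Not at hcon
      apply h2
      ext v
      have := hcon v
      simpa [eq_neg_iff_add_eq_zero] using this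
    obtain ⟨v, hv⟩ := hex
    intro h
    apply hv
    have hm : A v + v ∈ LinearMap.ker (A - 1) := by
      simp [LinearMap.mem_ker, hAA]
      abel
    rw [h] at hm
    exact (Submodule.mem_bot K).1 hm
  · intro h
    apply h1
    ext v
    have hm : v ∈ LinearMap.ker (A - 1) := by
      rw [h]
      trivial
    have := LinearMap.mem_ker.1 hm
    simpa [sub_eq_zero] using this
  · intro B hB v hv
    have hv' : A v = v := by
      have := LinearMap.mem_ker.1 hv
      simpa [sub_eq_zero] using this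
    rw [LinearMap.mem_ker]
    have : A (B v) = B (A v) := (LinearMap.congr_fun hB v).symm
    simp [this, hv']

/-- An element of order at most two commuting with a subgroup. -/
lemma invol_cases (ρ : G →* Module.End K V) (Q : Subgroup G)
    (hirr : ∀ W : Submodule K V, (∀ g ∈ Q, ∀ v ∈ W, ρ g v ∈ W) → W = ⊥ ∨ W = ⊤) (y : G) (hy : y ^ 2 = 1)
    (hc : ∀ g ∈ Q, g * y = y * g) : ρ y = 1 ∨ ρ y = -1 := by
  by_contra hcon
  push Not at hcon
  have hA : ρ y * ρ y = 1 := by
    rw [← map_mul, ← pow_two, hy, map_one]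
  obtain ⟨W, h1, h2, h3⟩ := eigen_split (ρ y) hA hcon.1 hcon.2
  rcases hirr W (fun g hg v hv => h3 (ρ g) (by rw [← map_mul, ← map_mul, hc g hg]) v hv) with h | h
  · exact h1 h
  · exact h2 h

end Rep

/-- A subgroup such that every element or its translate by `g₀` is a member has index at most two. -/
lemma index_le_two_of_cover {G : Type*} [Group G] (A : Subgroup G) (g₀ : G) (hcover : ∀ x, x ∈ A ∨ g₀⁻¹ * x ∈ A) :
    A.index ≤ 2 := by
  classical
  let f : Fin 2 → G ⧸ A := fun i => if i = 0 then ((1 : G) : G ⧸ A) else (g₀ : G ⧸ A)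
  have hf : Function.Surjective f := by
    intro x
    obtain ⟨h, rfl⟩ := QuotientGroup.mk_surjective x
    rcases hcover h with h1 | h1
    · refine ⟨0, ?_⟩
      simp only [f, if_true]
      apply QuotientGroup.eq.2
      simpa using h1
    · refine ⟨1, ?_⟩
      simp only [f, one_ne_zero, if_false]
      exact QuotientGroup.eq.2 h1
  have := Nat.card_le_card_of_surjective f hf
  simpa [Subgroup.index] using this

section Main

variable (r : ℕ) [hr : Fact r.Prime]

/-- The main claim for modules of a given size. -/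
def Claim (m : ℕ) : Prop :=
  ∀ (P : Type u) [Group P] [Finite P] (V : Type v) [AddCommGroup V] [Module (ZMod r) V] [Finite V]
    (ρ : P →* Module.End (ZMod r) V), IsPGroup 2 P → Function.Injective ρ → Nat.card V = m → 1 < m →
      (frattini P).index ≤ T m

variable {r}

lemma card_odd_of_module (hr2 : r ≠ 2) (V : Type*) [AddCommGroup V] [Module (ZMod r) V] [Finite V] :
    Odd (Nat.card V) := by
  rw [Module.natCard_eq_pow_finrank (K := ZMod r), Nat.card_zmod]
  exact Odd.pow (hr.out.odd_of_ne_two hr2)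

lemma three_le_card (hr2 : r ≠ 2) {V : Type*} [AddCommGroup V] [Module (ZMod r) V] [Finite V]
    (W : Submodule (ZMod r) V) (hW : W ≠ ⊥) : 3 ≤ Nat.card W := by
  have h1 := card_odd_of_module hr2 W
  haveI : Nontrivial W := (Submodule.nontrivial_iff_ne_bot).2 hW
  have h2 : 1 < Nat.card W := Finite.one_lt_card
  obtain ⟨k, hk⟩ := h1
  omega

lemma card_of_compl {V : Type*} [AddCommGroup V] [Module (ZMod r) V] (W W' : Submodule (ZMod r) V)
    (hc : IsCompl W W') : Nat.card V = Nat.card W * Nat.card W' := by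
  rw [← Nat.card_prod]
  exact Nat.card_congr (Submodule.prodEquivOfIsCompl W W' hc).toEquiv.symm

/-- The bound along a direct sum. -/
theorem split_bound (hr2 : r ≠ 2) {G : Type u} [Group G] [Finite G] {V : Type v} [AddCommGroup V]
    [Module (ZMod r) V] [Finite V] (ρ : G →* Module.End (ZMod r) V) (hG : IsPGroup 2 G) (hinj : Function.Injective ρ)
    (W W' : Submodule (ZMod r) V) (hc : IsCompl W W') (hW : ∀ g, ∀ v ∈ W, ρ g v ∈ W) (hW' : ∀ g, ∀ v ∈ W', ρ g v ∈ W')
    (h0 : W ≠ ⊥) (h0' : W' ≠ ⊥) (IH : ∀ m < Nat.card V, Claim.{u, v} r m) :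
    (frattini G).index ≤ T (Nat.card W) * T (Nat.card W') := by
  have hcard := card_of_compl W W' hc
  have h3 := three_le_card hr2 W h0
  have h3' := three_le_card hr2 W' h0'
  obtain ⟨N, hN, ρ₁, ρ₂, h1, h2⟩ := split_rep ρ hinj W W' hc hW hW'
  haveI := hN
  have hlt1 : Nat.card W < Nat.card V := by
    rw [hcard]
    nlinarith
  have hlt2 : Nat.card W' < Nat.card V := by
    rw [hcard]
    nlinarith
  have b1 := IH _ hlt1 (G ⧸ N) W ρ₁ (hG.to_quotient N) h1 rfl (by omega)
  have b2 := IH _ hlt2 N W' ρ₂ (hG.to_subgroup N) h2 rfl (by omega)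
  exact (frattini_index_le_mul hG N).trans (Nat.mul_le_mul b1 b2)

/-- A one-dimensional representation is a character. -/
theorem exists_char_of_dim_one {G : Type*} [Group G] {V : Type*} [AddCommGroup V] [Module (ZMod r) V]
    (ρ : G →* Module.End (ZMod r) V) (hinj : Function.Injective ρ) (hd : Module.finrank (ZMod r) V = 1) :
    ∃ f : G →* ZMod r, Function.Injective f := by
  classical
  have hnt : Nontrivial V := Module.nontrivial_of_finrank_pos (R := ZMod r) (by omega)
  obtain ⟨v, hv⟩ := exists_ne (0 : V)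
  have hc := (finrank_eq_one_iff_of_nonzero' v hv).1 hd
  choose c hc' using hc
  have hsm : Function.Injective fun a : ZMod r => a • v := smul_left_injective (ZMod r) hv
  let f : G →* ZMod r :=
    { toFun := fun g => c (ρ g v)
      map_one' := by
        apply hsm
        show c (ρ 1 v) • v = (1 : ZMod r) • v
        rw [hc', map_one, one_smul]
        rfl
      map_mul' := fun g h => by
        apply hsm
        show c (ρ (g * h) v) • v = (c (ρ g v) * c (ρ h v)) • v
        rw [hc', map_mul, Module.End.mul_apply, mul_comm, mul_smul, hc', ← hc' (ρ h v), map_smul, hc'] }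
  refine ⟨f, fun a b hab => hinj ?_⟩
  have hab' : c (ρ a v) = c (ρ b v) := hab
  ext w
  rw [← hc' w, map_smul, map_smul, ← hc' (ρ a v), ← hc' (ρ b v), hab']

/-- Dimension one gives cyclic groups. -/
theorem index_le_two_of_dim_one {P : Type*} [Group P] [Finite P] {V : Type*} [AddCommGroup V] [Module (ZMod r) V]
    (ρ : P →* Module.End (ZMod r) V) (hP : IsPGroup 2 P) (hinj : Function.Injective ρ)
    (hd : Module.finrank (ZMod r) V = 1) : (frattini P).index ≤ 2 := by
  obtain ⟨f, hf⟩ := exists_char_of_dim_one ρ hinj hd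
  exact frattini_index_le_two_of_cyclic hP (isCyclic_of_subgroup_isDomain f hf)

/-- Groups acting faithfully on a module of size three have at most two elements. -/
theorem card_le_two_of_card_three {G : Type*} [Group G] [Finite G] {V : Type*} [AddCommGroup V] [Module (ZMod r) V]
    [Finite V] (ρ : G →* Module.End (ZMod r) V) (hinj : Function.Injective ρ) (h3 : Nat.card V = 3) :
    Nat.card G ≤ 2 := by
  have hcard := Module.natCard_eq_pow_finrank (K := ZMod r) (V := V)
  rw [h3, Nat.card_zmod] at hcard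
  have hd0 : Module.finrank (ZMod r) V ≠ 0 := by
    intro h
    rw [h] at hcard
    norm_num at hcard
  have hr3 : r = 3 := by
    have h1 : r ∣ 3 := by
      rw [hcard]
      exact dvd_pow_self r hd0
    exact (Nat.prime_dvd_prime_iff_eq hr.out Nat.prime_three).1 h1
  subst hr3
  have hd : Module.finrank (ZMod 3) V = 1 := by
    have h1 : 3 ^ 1 = 3 ^ Module.finrank (ZMod 3) V := by simpa using hcard
    exact (Nat.pow_right_injective (le_refl 2 |>.trans (by norm_num)) h1).symm
  obtain ⟨f, hf⟩ := exists_char_of_dim_one ρ hinj hd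
  have hinj' : Function.Injective (MonoidHom.toHomUnits f) := fun a b hab => hf (congrArg Units.val hab)
  have := Nat.card_le_card_of_injective _ hinj'
  rw [Nat.card_eq_fintype_card (α := (ZMod 3)ˣ), ZMod.card_units 3] at this
  simpa using this

/-- Irreducibility on subgroups of index two excludes normal four-subgroups. -/
theorem noV_of_irr {P : Type*} [Group P] [Finite P] {V : Type*} [AddCommGroup V] [Module (ZMod r) V]
    (ρ : P →* Module.End (ZMod r) V) (hinj : Function.Injective ρ)
    (hirr : ∀ Q : Subgroup P, Q.index ≤ 2 → ∀ W : Submodule (ZMod r) V, (∀ g ∈ Q, ∀ v ∈ W, ρ g v ∈ W) → W = ⊥ ∨ W = ⊤) :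
    NoV P := by
  intro z y hzc hz2 hz1 hy2 hy1 hyz horb
  have hz : ρ z = -1 := by
    rcases invol_cases ρ ⊤ (hirr ⊤ (by simp)) z hz2 (fun g _ => (mem_center_iff.1 hzc g)) with h | h
    · exact absurd (hinj (h.trans (map_one ρ).symm)) hz1
    · exact h
  let Q : Subgroup P := centralizer {y}
  have hmem : ∀ g, g ∈ Q ↔ g * y = y * g := by
    intro g
    rw [mem_centralizer_singleton_iff]
  have hQ : Q.index ≤ 2 := by
    by_cases hall : ∀ g, g ∈ Q
    · have : Q = ⊤ := eq_top_iff.2 fun g _ => hall g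
      rw [this, Subgroup.index_top]
      norm_num
    push Not at hall
    obtain ⟨g₀, hg₀⟩ := hall
    have horb' : ∀ g, g ∉ Q → g * y = z * y * g := by
      intro g hg
      rcases horb g with h | h
      · exfalso
        apply hg
        rw [hmem]
        calc g * y = (g * y * g⁻¹) * g := by group
          _ = y * g := by rw [h]
      · calc g * y = (g * y * g⁻¹) * g := by group
          _ = z * y * g := by rw [h]
    apply index_le_two_of_cover Q g₀
    intro x
    by_cases hx : x ∈ Q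
    · exact Or.inl hx
    right
    rw [hmem]
    have h1 := horb' x hx
    have h2 := horb' g₀ hg₀
    have h3 : y * g₀⁻¹ = g₀⁻¹ * (z * y) := by
      calc y * g₀⁻¹ = g₀⁻¹ * (g₀ * y) * g₀⁻¹ := by group
        _ = g₀⁻¹ * (z * y * g₀) * g₀⁻¹ := by rw [h2]
        _ = g₀⁻¹ * (z * y) := by group
    calc g₀⁻¹ * x * y = g₀⁻¹ * (x * y) := by group
      _ = g₀⁻¹ * (z * y * x) := by rw [h1]
      _ = (g₀⁻¹ * (z * y)) * x := by group
      _ = (y * g₀⁻¹) * x := by rw [h3]
      _ = y * (g₀⁻¹ * x) := by group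
  rcases invol_cases ρ Q (hirr Q hQ) y hy2 (fun g hg => (hmem g).1 hg) with h | h
  · exact hy1 (hinj (h.trans (map_one ρ).symm))
  · exact hyz (hinj (h.trans hz.symm))

/-- The swapping case: an irreducible module reducible on a subgroup of index two. -/
theorem swap_step (hr2 : r ≠ 2) {P : Type u} [Group P] [Finite P] {V : Type v} [AddCommGroup V]
    [Module (ZMod r) V] [Finite V] (ρ : P →* Module.End (ZMod r) V) (hP : IsPGroup 2 P) (hinj : Function.Injective ρ)
    (hirr : ∀ W : Submodule (ZMod r) V, (∀ g, ∀ v ∈ W, ρ g v ∈ W) → W = ⊥ ∨ W = ⊤) (Q : Subgroup P) (hQ : Q.index ≤ 2)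
    (W₀ : Submodule (ZMod r) V) (hW₀ : ∀ g ∈ Q, ∀ v ∈ W₀, ρ g v ∈ W₀) (h0 : W₀ ≠ ⊥) (h1 : W₀ ≠ ⊤)
    (IH : ∀ m < Nat.card V, Claim.{u, v} r m) : (frattini P).index ≤ T (Nat.card V) := by
  classical
  haveI := Fintype.ofFinite Q
  haveI : Module.Finite (ZMod r) V := Module.Finite.of_finite
  obtain ⟨W, hWW₀, hW0, hWinv, hWmin⟩ := Cfsg.Agent.Lib.HHB.exists_min_inv (ρ.comp Q.subtype) W₀ h0
    (fun g v hv => hW₀ g g.2 v hv)
  have hQinv : ∀ g ∈ Q, ∀ v ∈ W, ρ g v ∈ W := fun g hg v hv => hWinv ⟨g, hg⟩ v hv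
  have hWtop : W ≠ ⊤ := by
    intro h
    apply h1
    rw [h] at hWW₀
    exact top_le_iff.1 hWW₀
  have hQtop : Q ≠ ⊤ := by
    intro h
    rcases hirr W (fun g v hv => hQinv g (by rw [h]; trivial) v hv) with h2 | h2
    · exact hW0 h2
    · exact hWtop h2
  have hQ2 : Q.index = 2 := by
    have h2 : Q.index ≠ 0 := Subgroup.index_ne_zero_of_finite
    have h3 : Q.index ≠ 1 := fun h => hQtop (Subgroup.index_eq_one.1 h)
    omega
  haveI hQn : Q.Normal := Subgroup.normal_of_index_eq_two hQ2
  have hnot : ∃ x, x ∉ Q := by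
    by_contra hcon
    push Not at hcon
    exact hQtop (eq_top_iff.2 fun g _ => hcon g)
  obtain ⟨x, hx⟩ := hnot
  have hρinj : ∀ g, Function.Injective (ρ g) := by
    intro g a b hab
    have h2 := congrArg (ρ g⁻¹) hab
    rw [← Module.End.mul_apply, ← Module.End.mul_apply, ← map_mul, inv_mul_cancel, map_one] at h2
    simpa using h2
  let W' : Submodule (ZMod r) V := W.map (ρ x)
  have hmemW' : ∀ v ∈ W, ρ x v ∈ W' := fun v hv => Submodule.mem_map_of_mem hv
  have hcardW' : Nat.card W' = Nat.card W :=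
    (Nat.card_congr (Submodule.equivMapOfInjective (ρ x) (hρinj x) W).toEquiv).symm
  have hfinW' : Module.finrank (ZMod r) W = Module.finrank (ZMod r) W' :=
    (Submodule.equivMapOfInjective (ρ x) (hρinj x) W).finrank_eq
  have hW'0 : W' ≠ ⊥ := by
    intro h
    apply hW0
    rw [Submodule.eq_bot_iff]
    intro v hv
    have h2 := hmemW' v hv
    rw [h, Submodule.mem_bot] at h2
    exact hρinj x (h2.trans (map_zero _).symm)
  have hQinv' : ∀ g ∈ Q, ∀ v ∈ W', ρ g v ∈ W' := by
    intro g hg v hv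
    obtain ⟨w, hw, rfl⟩ := Submodule.mem_map.1 hv
    have h2 : ρ g (ρ x w) = ρ x (ρ (x⁻¹ * g * x) w) := by
      rw [← Module.End.mul_apply, ← Module.End.mul_apply, ← map_mul, ← map_mul]
      congr 2
      group
    rw [h2]
    refine hmemW' _ (hQinv _ ?_ _ hw)
    have := hQn.conj_mem g hg x⁻¹
    simpa using this
  have hnotQ : ∀ g, g ∉ Q → x⁻¹ * g ∈ Q ∧ g * x ∈ Q := by
    intro g hg
    constructor
    · rw [Subgroup.mul_mem_iff_of_index_two hQ2, Q.inv_mem_iff]
      tauto
    · rw [Subgroup.mul_mem_iff_of_index_two hQ2]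
      tauto
  have hout1 : ∀ g, g ∉ Q → ∀ v ∈ W, ρ g v ∈ W' := by
    intro g hg v hv
    have h2 : ρ g v = ρ x (ρ (x⁻¹ * g) v) := by
      rw [← Module.End.mul_apply, ← map_mul]
      congr 2
      group
    rw [h2]
    exact hmemW' _ (hQinv _ (hnotQ g hg).1 _ hv)
  have hout2 : ∀ g, g ∉ Q → ∀ v ∈ W', ρ g v ∈ W := by
    intro g hg v hv
    obtain ⟨w, hw, rfl⟩ := Submodule.mem_map.1 hv
    rw [← Module.End.mul_apply, ← map_mul]
    exact hQinv _ (hnotQ g hg).2 _ hw
  have hdisj : W ⊓ W' = ⊥ := by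
    rcases hWmin (W ⊓ W') inf_le_left (fun g v hv => ⟨hQinv _ g.2 _ hv.1, hQinv' _ g.2 _ hv.2⟩) with h2 | h2
    · exact h2
    · exfalso
      have hle : W ≤ W' := inf_eq_left.1 h2
      have heq : W = W' := Submodule.eq_of_le_of_finrank_eq hle hfinW'
      have hinv : ∀ g, ∀ v ∈ W, ρ g v ∈ W := by
        intro g v hv
        by_cases hg : g ∈ Q
        · exact hQinv g hg v hv
        · have := hout1 g hg v hv
          rwa [← heq] at this
      rcases hirr W hinv with h3 | h3
      · exact hW0 h3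
      · exact hWtop h3
  have hsup : W ⊔ W' = ⊤ := by
    have hinv : ∀ g, ∀ v ∈ W ⊔ W', ρ g v ∈ W ⊔ W' := by
      intro g v hv
      obtain ⟨w, hw, w', hw', rfl⟩ := Submodule.mem_sup.1 hv
      rw [map_add]
      by_cases hg : g ∈ Q
      · exact Submodule.add_mem_sup (hQinv g hg w hw) (hQinv' g hg w' hw')
      · rw [add_comm]
        exact Submodule.add_mem_sup (hout2 g hg w' hw') (hout1 g hg w hw)
    rcases hirr _ hinv with h3 | h3
    · exfalso
      apply hW0
      rw [eq_bot_iff, ← h3]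
      exact le_sup_left
    · exact h3
  have hc : IsCompl W W' := ⟨disjoint_iff.2 hdisj, codisjoint_iff.2 hsup⟩
  have hcard : Nat.card V = Nat.card W * Nat.card W := by
    rw [card_of_compl W W' hc, hcardW']
  have hodd := card_odd_of_module hr2 W
  have h3 := three_le_card hr2 W hW0
  have hρQ : Function.Injective (ρ.comp Q.subtype) := fun a b hab => Subtype.ext (hinj hab)
  have hbQ : (frattini Q).index ≤ T (Nat.card W) * T (Nat.card W') :=
    split_bound hr2 (ρ.comp Q.subtype) (hP.to_subgroup Q) hρQ W W' hc (fun g v hv => hQinv _ g.2 _ hv)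
      (fun g v hv => hQinv' _ g.2 _ hv) hW0 hW'0 IH
  rw [hcardW'] at hbQ
  by_cases ha5 : 5 ≤ Nat.card W
  · have hPQ : (frattini (P ⧸ Q)).index ≤ 2 := by
      have hc2 : Nat.card (P ⧸ Q) = 2 := hQ2
      haveI : Fact (Nat.Prime 2) := ⟨Nat.prime_two⟩
      haveI := Fintype.ofFinite (P ⧸ Q)
      exact frattini_index_le_two_of_cyclic (hP.to_quotient Q) (isCyclic_of_prime_card (p := 2) hc2)
    calc (frattini P).index ≤ (frattini (P ⧸ Q)).index * (frattini Q).index := frattini_index_le_mul hP Q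
      _ ≤ 2 * (T (Nat.card W) * T (Nat.card W)) := Nat.mul_le_mul hPQ hbQ
      _ ≤ T (Nat.card W * Nat.card W) := T_swap hodd ha5
      _ = T (Nat.card V) := by rw [hcard]
  -- the module of size nine
  have ha3 : Nat.card W = 3 := by
    obtain ⟨k, hk⟩ := hodd
    omega
  have hQcard : Nat.card Q ≤ 4 := by
    obtain ⟨N, hN, ρ₁, ρ₂, h2, h4⟩ := split_rep (ρ.comp Q.subtype) hρQ W W' hc (fun g v hv => hQinv _ g.2 _ hv)
      (fun g v hv => hQinv' _ g.2 _ hv)
    haveI := hN
    have h5 := card_le_two_of_card_three ρ₁ h2 ha3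
    have h6 := card_le_two_of_card_three ρ₂ h4 (hcardW'.trans ha3)
    have h7 : N.index * Nat.card N = Nat.card Q := Subgroup.index_mul_card N
    have h8 : N.index = Nat.card (Q ⧸ N) := rfl
    rw [← h7, h8]
    exact Nat.mul_le_mul h5 h6
  have hPcard : Nat.card P ≤ 8 := by
    rw [← Subgroup.index_mul_card Q, hQ2]
    omega
  have hsq : ∃ y : P, y ^ 2 ≠ 1 := by
    by_contra hcon
    push Not at hcon
    have hinv' : ∀ g : P, g⁻¹ = g := fun g => inv_eq_of_mul_eq_one_right (by rw [← pow_two]; exact hcon g)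
    have hcomm : ∀ a b : P, a * b = b * a := by
      intro a b
      calc a * b = (a * b)⁻¹ := (hinv' _).symm
        _ = b⁻¹ * a⁻¹ := mul_inv_rev _ _
        _ = b * a := by rw [hinv', hinv']
    have hscal : ∀ g, ρ g = 1 ∨ ρ g = -1 := fun g =>
      invol_cases ρ ⊤ (fun W hW => hirr W (fun h => hW h trivial)) g (hcon g) (fun h _ => hcomm h g)
    have hinv : ∀ g, ∀ v ∈ W, ρ g v ∈ W := by
      intro g v hv
      rcases hscal g with h | h
      · rw [h]
        exact hv
      · rw [h]
        simpa using W.neg_mem hv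
    rcases hirr W hinv with h3 | h3
    · exact hW0 h3
    · exact hWtop h3
  obtain ⟨y, hy⟩ := hsq
  obtain ⟨-, hp⟩ := Cfsg.Agent.Lib.Core.frattini_pgroup 2 hP
  have hmem : y ^ 2 ∈ frattini P := hp y
  have hcardΦ : 2 ≤ Nat.card (frattini P) := by
    haveI : Nontrivial (frattini P) := ⟨⟨⟨y ^ 2, hmem⟩, 1, fun h => hy (congrArg Subtype.val h)⟩⟩
    exact Finite.one_lt_card
  have h4 := Subgroup.index_mul_card (frattini P)
  have h5 : T (Nat.card V) = 4 := by
    rw [hcard, ha3]
    rfl
  rw [h5]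
  nlinarith

/-- The main bound. -/
theorem claim_all (hr2 : r ≠ 2) (n : ℕ) : Claim.{u, v} r n := by
  induction n using Nat.strong_induction_on with
  | _ n ih =>
  intro P _ _ V _ _ _ ρ hP hinj hV hn
  subst hV
  classical
  haveI : Module.Finite (ZMod r) V := Module.Finite.of_finite
  have hcard := Module.natCard_eq_pow_finrank (K := ZMod r) (V := V)
  rw [Nat.card_zmod] at hcard
  have hr3 : 3 ≤ r := by
    have := hr.out.two_le
    omega
  have hd0 : Module.finrank (ZMod r) V ≠ 0 := by
    intro h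
    rw [h, pow_zero] at hcard
    omega
  by_cases hd : Module.finrank (ZMod r) V = 1
  · have h1 := index_le_two_of_dim_one ρ hP hinj hd
    refine h1.trans ?_
    rw [hcard, hd, pow_one]
    unfold T
    split_ifs
    · exact le_rfl
    · have := hr.out.odd_of_ne_two hr2
      obtain ⟨k, hk⟩ := this
      omega
  have h9 : 9 ≤ Nat.card V := by
    rw [hcard]
    calc 9 = 3 ^ 2 := by norm_num
      _ ≤ r ^ 2 := Nat.pow_le_pow_left hr3 2
      _ ≤ r ^ Module.finrank (ZMod r) V := Nat.pow_le_pow_right (by omega) (by omega)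
  by_cases hred : ∃ W : Submodule (ZMod r) V, W ≠ ⊥ ∧ W ≠ ⊤ ∧ ∀ g, ∀ v ∈ W, ρ g v ∈ W
  · obtain ⟨W, h0, h1, hW⟩ := hred
    haveI := Fintype.ofFinite P
    have hN : ((Fintype.card P : ℕ) : ZMod r) ≠ 0 := by
      rw [Ne, ZMod.natCast_eq_zero_iff, ← Nat.card_eq_fintype_card]
      obtain ⟨k, hk⟩ := hP.exists_card_eq
      rw [hk]
      intro h
      have h2 := hr.out.dvd_of_dvd_pow h
      exact hr2 ((Nat.prime_dvd_prime_iff_eq hr.out Nat.prime_two).1 h2)
    obtain ⟨L, hc, hL⟩ := Cfsg.Agent.Lib.HHB.exists_inv_compl ρ hN W hW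
    have hL0 : L ≠ ⊥ := by
      intro h
      rw [h] at hc
      exact h1 ((sup_bot_eq W).symm.trans hc.sup_eq_top)
    have h2 := split_bound hr2 ρ hP hinj W L hc hW hL h0 hL0 ih
    have h3 := T_mul (card_odd_of_module hr2 W) (card_odd_of_module hr2 L) (three_le_card hr2 W h0) (three_le_card hr2 L hL0)
    rw [← card_of_compl W L hc] at h3
    exact h2.trans h3
  have hirr : ∀ W : Submodule (ZMod r) V, (∀ g, ∀ v ∈ W, ρ g v ∈ W) → W = ⊥ ∨ W = ⊤ := by
    intro W hW
    by_contra hcon
    push Not at hcon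
    exact hred ⟨W, hcon.1, hcon.2, hW⟩
  by_cases hB : ∃ Q : Subgroup P, Q.index ≤ 2 ∧ ∃ W : Submodule (ZMod r) V, (∀ g ∈ Q, ∀ v ∈ W, ρ g v ∈ W) ∧ W ≠ ⊥ ∧ W ≠ ⊤
  · obtain ⟨Q, hQ, W₀, hW₀, h0, h1⟩ := hB
    exact swap_step hr2 ρ hP hinj hirr Q hQ W₀ hW₀ h0 h1 ih
  have hno : NoV P := by
    apply noV_of_irr ρ hinj
    intro Q hQ W hW
    by_contra hcon
    push Not at hcon
    exact hB ⟨Q, hQ, W, hW, hcon.1, hcon.2⟩
  obtain ⟨A, hAn, hAc, hAi⟩ := exists_cyclic_index_le_two hP hno
  haveI := hAn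
  have h4 := frattini_index_le_of_index hP hAc hAi
  refine h4.trans ?_
  unfold T
  rw [if_neg (by omega)]
  omega

end Main

/-- A group of automorphisms of an elementary abelian group as a linear group. -/
def autRep {P A : Type*} [Group P] [CommGroup A] (r : ℕ) [Module (ZMod r) (Additive A)] (φ : P →* MulAut A) :
    P →* Module.End (ZMod r) (Additive A) where
  toFun g := AddMonoidHom.toZModLinearMap r (MonoidHom.toAdditive (φ g).toMonoidHom)
  map_one' := by
    apply LinearMap.ext
    intro v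
    rw [Module.End.one_apply]
    apply Additive.toMul.injective
    show (φ 1) (Additive.toMul v) = Additive.toMul v
    rw [map_one]
    rfl
  map_mul' g h := by
    apply LinearMap.ext
    intro v
    rw [Module.End.mul_apply]
    apply Additive.toMul.injective
    show (φ (g * h)) (Additive.toMul v) = (φ g) ((φ h) (Additive.toMul v))
    rw [map_mul]
    rfl

lemma autRep_apply {P A : Type*} [Group P] [CommGroup A] (r : ℕ) [Module (ZMod r) (Additive A)] (φ : P →* MulAut A)
    (g : P) (v : Additive A) : Additive.toMul (autRep r φ g v) = φ g (Additive.toMul v) := rfl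

/-- The bound for a `2`-group of automorphisms of an elementary abelian group of odd order. -/
theorem frattini_index_le_of_aut {P : Type u} {A : Type v} [Group P] [Finite P] [CommGroup A] [Finite A]
    (r : ℕ) [Fact r.Prime] (hr2 : r ≠ 2) (hexp : ∀ a : A, a ^ r = 1) (φ : P →* MulAut A) (hφ : Function.Injective φ)
    (hP : IsPGroup 2 P) (hA : 1 < Nat.card A) : (frattini P).index ≤ Nat.card A - 1 := by
  have hexp' : ∀ a : Additive A, r • a = 0 := fun a => hexp (Additive.toMul a)
  letI : Module (ZMod r) (Additive A) := AddCommGroup.zmodModule hexp'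
  have hinj : Function.Injective (autRep r φ) := by
    intro g h hgh
    apply hφ
    ext a
    have h1 := LinearMap.congr_fun hgh (Additive.ofMul a)
    exact congrArg Additive.toMul h1
  have hcard : Nat.card (Additive A) = Nat.card A := rfl
  have hmain := claim_all.{u, v} hr2 _ P (Additive A) (autRep r φ) hP hinj rfl (by rwa [hcard])
  rw [hcard] at hmain
  refine hmain.trans ?_
  unfold T
  split_ifs with h3
  · omega
  · omega

end Cfsg.Agent.Lib.FrattIdx
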